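import Mathlib

set_option autoImplicit false

namespace Cfsg.Agent.Lib.Helper39

/-- The value of a letter `(i, b)` of a free-group word under a substitution `g`. -/
def letterVal {ι G : Type*} [Group G] (g : ι → G) (x : ι × Bool) : G :=
  cond x.2 (g x.1) (g x.1)⁻¹

theorem lift_eq_prod_toWord {ι G : Type*} [Group G] [DecidableEq ι] (g : ι → G) (w : FreeGroup ι) :
    FreeGroup.lift g w = (w.toWord.map (letterVal g)).prod := by
  conv_lhs => rw [← FreeGroup.mk_toWord (x := w)]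
  rw [FreeGroup.lift_mk]
  rfl

/-- Abstract ping-pong on reduced words: attracting sets `P x` indexed by letters. -/
theorem pingpong_word {ι G X : Type*} [Group G] [MulAction G X] (g : ι → G)
    (P : ι × Bool → Set X) (z₀ : X)
    (h0 : ∀ x, letterVal g x • z₀ ∈ P x)
    (h1 : ∀ x y : ι × Bool, (x.1 = y.1 → x.2 = y.2) → ∀ z ∈ P y, letterVal g x • z ∈ P x) :
    ∀ (L : List (ι × Bool)), FreeGroup.IsReduced L → ∀ x, L.head? = some x →
      (L.map (letterVal g)).prod • z₀ ∈ P x := by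
  intro L
  induction L with
  | nil => intro _ x hx; simp at hx
  | cons a L ih =>
    intro hL x hx
    simp only [List.head?_cons, Option.some.injEq] at hx
    subst hx
    cases L with
    | nil => simpa using h0 a
    | cons b L =>
      rw [FreeGroup.isReduced_cons_cons] at hL
      have := ih hL.2 b rfl
      rw [List.map_cons, List.prod_cons, mul_smul]
      exact h1 a b hL.1 _ this

/-- Ping-pong with two "half-spaces" `Xp`, `Xm` and generators `U i * T i`. -/
theorem pingpong_UT {G X : Type*} [Group G] [MulAction G X] (U T : ℕ → G)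
    (Xp Xm : Set X) (z₀ : X)
    (hU : ∀ i, ∀ z ∈ Xm, U i • z ∈ Xp)
    (hU' : ∀ i, ∀ z ∈ Xm, (U i)⁻¹ • z ∈ Xp)
    (hUU : ∀ i j, i ≠ j → ∀ z ∈ Xm, ((U i)⁻¹ * U j) • z ∈ Xp)
    (hT : ∀ i, ∀ z ∈ Xp, T i • z ∈ Xm)
    (hT' : ∀ i, ∀ z ∈ Xp, (T i)⁻¹ • z ∈ Xm)
    (hTT : ∀ i j, i ≠ j → ∀ z ∈ Xp, (T i * (T j)⁻¹) • z ∈ Xm)
    (hz1 : ∀ i, T i • z₀ ∈ Xm) (hz2 : ∀ i, (U i)⁻¹ • z₀ ∈ Xp)
    (w : FreeGroup ℕ) (hw : w ≠ 1) :
    FreeGroup.lift (fun i => U i * T i) w • z₀ ∈ Xp ∪ Xm := by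
  classical
  set g : ℕ → G := fun i => U i * T i with hg
  let P : ℕ × Bool → Set X := fun x =>
    cond x.2 ((fun z => U x.1 • z) '' Xm) ((fun z => (T x.1)⁻¹ • z) '' Xp)
  have hPsub : ∀ x, P x ⊆ Xp ∪ Xm := by
    rintro ⟨i, b⟩ z hz
    cases b with
    | true =>
      obtain ⟨y, hy, rfl⟩ := hz
      exact Or.inl (hU i y hy)
    | false =>
      obtain ⟨y, hy, rfl⟩ := hz
      exact Or.inr (hT' i y hy)
  have h0 : ∀ x, letterVal g x • z₀ ∈ P x := by
    rintro ⟨i, b⟩
    cases b with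
    | true =>
      refine ⟨T i • z₀, hz1 i, ?_⟩
      simp [letterVal, hg, mul_smul]
    | false =>
      refine ⟨(U i)⁻¹ • z₀, hz2 i, ?_⟩
      simp [letterVal, hg, mul_smul]
  have h1 : ∀ x y : ℕ × Bool, (x.1 = y.1 → x.2 = y.2) → ∀ z ∈ P y, letterVal g x • z ∈ P x := by
    rintro ⟨i, b⟩ ⟨j, c⟩ hxy z hz
    simp only at hxy
    cases b with
    | true =>
      cases c with
      | true =>
        obtain ⟨y, hy, rfl⟩ := hz
        refine ⟨T i • U j • y, hT i _ (hU j y hy), ?_⟩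
        simp [letterVal, hg, mul_smul]
      | false =>
        obtain ⟨y, hy, rfl⟩ := hz
        have hij : i ≠ j := fun h => by simpa using hxy h
        refine ⟨(T i * (T j)⁻¹) • y, hTT i j hij y hy, ?_⟩
        simp [letterVal, hg, mul_smul]
    | false =>
      cases c with
      | true =>
        obtain ⟨y, hy, rfl⟩ := hz
        have hij : i ≠ j := fun h => by simpa using hxy h
        refine ⟨((U i)⁻¹ * U j) • y, hUU i j hij y hy, ?_⟩
        simp [letterVal, hg, mul_smul]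
      | false =>
        obtain ⟨y, hy, rfl⟩ := hz
        refine ⟨(U i)⁻¹ • (T j)⁻¹ • y, hU' i _ (hT' j y hy), ?_⟩
        simp [letterVal, hg, mul_smul]
  have hne : w.toWord ≠ [] := fun h => hw (FreeGroup.toWord_eq_nil_iff.mp h)
  obtain ⟨x, L, hxL⟩ := List.exists_cons_of_ne_nil hne
  rw [lift_eq_prod_toWord]
  exact hPsub x (pingpong_word g P z₀ h0 h1 w.toWord FreeGroup.isReduced_toWord x (by rw [hxL]; rfl))

end Cfsg.Agent.Lib.Helper39
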