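import Mathlib
import Cfsg.Agent.Lib.Helper39.PingPong

set_option autoImplicit false

namespace Cfsg.Agent.Lib.Helper39

open Polynomial

/-- The natural action of `GL n R` on column vectors. -/
@[reducible] def glAction (n R : Type*) [Fintype n] [DecidableEq n] [CommRing R] :
    MulAction (Matrix.GeneralLinearGroup n R) (n → R) where
  smul g v := (g : Matrix n n R).mulVec v
  one_smul v := by
    change ((1 : Matrix.GeneralLinearGroup n R) : Matrix n n R).mulVec v = v
    simp
  mul_smul g h v := by
    change ((g * h : Matrix.GeneralLinearGroup n R) : Matrix n n R).mulVec v =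
      (g : Matrix n n R).mulVec ((h : Matrix n n R).mulVec v)
    simp [Matrix.mulVec_mulVec]

/-- `M` has a dominant entry at `(r, c)`. -/
def Dominant {n F : Type*} [Field F] (M : Matrix n n F[X]) (r c : n) : Prop :=
  M r c ≠ 0 ∧ (∀ i, i ≠ r → (M i c).degree < (M r c).degree) ∧
    ∀ i j, (M i j).degree ≤ (M r c).degree

/-- Vectors whose `c`-th coordinate has the strictly largest degree. -/
def Lead {n F : Type*} [Field F] (c : n) : Set (n → F[X]) :=
  {z | z c ≠ 0 ∧ ∀ j, j ≠ c → (z j).degree < (z c).degree}

theorem Dominant.mulVec_mem {n F : Type*} [Fintype n] [DecidableEq n] [Field F]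
    {M : Matrix n n F[X]} {r c : n} (h : Dominant M r c) {z : n → F[X]} (hz : z ∈ Lead c) :
    M.mulVec z ∈ Lead r := by
  obtain ⟨hne, hcol, hall⟩ := h
  obtain ⟨hzc, hzj⟩ := hz
  have hbot : (⊥ : WithBot ℕ) < (M r c * z c).degree := by
    rw [bot_lt_iff_ne_bot, Ne, degree_eq_bot]
    exact mul_ne_zero hne hzc
  -- the tail of every row is small
  have htail : ∀ i, (∑ j ∈ Finset.univ.erase c, M i j * z j).degree < (M r c * z c).degree := by
    intro i
    refine lt_of_le_of_lt (degree_sum_le _ _) ?_
    rw [Finset.sup_lt_iff hbot]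
    intro j hj
    have hjc : j ≠ c := Finset.ne_of_mem_erase hj
    by_cases hz0 : z j = 0
    · simpa [hz0] using hbot
    by_cases hM0 : M i j = 0
    · simpa [hM0] using hbot
    rw [degree_mul, degree_mul]
    have h1 := hall i j
    have h2 := hzj j hjc
    rw [degree_eq_natDegree hM0, degree_eq_natDegree hne] at h1
    rw [degree_eq_natDegree hz0, degree_eq_natDegree hzc] at h2
    rw [degree_eq_natDegree hM0, degree_eq_natDegree hne, degree_eq_natDegree hz0,
      degree_eq_natDegree hzc]
    norm_cast at h1 h2 ⊢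
    omega
  have hsplit : ∀ i, M.mulVec z i = M i c * z c + ∑ j ∈ Finset.univ.erase c, M i j * z j := by
    intro i
    rw [Matrix.mulVec, dotProduct, ← Finset.add_sum_erase _ _ (Finset.mem_univ c)]
  have hr : (M.mulVec z r).degree = (M r c * z c).degree := by
    rw [hsplit r]
    exact degree_add_eq_left_of_degree_lt (htail r)
  refine ⟨?_, ?_⟩
  · intro h0
    rw [h0, degree_zero] at hr
    rw [← hr] at hbot
    exact lt_irrefl _ hbot
  · intro i hi
    rw [hr, hsplit i]
    refine lt_of_le_of_lt (degree_add_le _ _) (max_lt ?_ (htail i))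
    by_cases hM0 : M i c = 0
    · simpa [hM0] using hbot
    rw [degree_mul, degree_mul]
    have h1 := hcol i hi
    rw [degree_eq_natDegree hM0, degree_eq_natDegree hne] at h1
    rw [degree_eq_natDegree hM0, degree_eq_natDegree hne, degree_eq_natDegree hzc]
    norm_cast at h1 ⊢
    omega

/-- All entries have `natDegree ≤ d`. -/
def EntryDegLE {n F : Type*} [Field F] (M : Matrix n n F[X]) (d : ℕ) : Prop :=
  ∀ i j, (M i j).natDegree ≤ d

theorem EntryDegLE.one {n F : Type*} [DecidableEq n] [Field F] :
    EntryDegLE (1 : Matrix n n F[X]) 0 := by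
  intro i j
  by_cases h : i = j
  · subst h; simp
  · simp [Matrix.one_apply_ne h]

theorem EntryDegLE.mul {n F : Type*} [Fintype n] [Field F] {M N : Matrix n n F[X]} {d e : ℕ}
    (hM : EntryDegLE M d) (hN : EntryDegLE N e) : EntryDegLE (M * N) (d + e) := by
  intro i j
  rw [Matrix.mul_apply]
  refine natDegree_sum_le_of_forall_le _ _ ?_
  intro k _
  exact le_trans natDegree_mul_le (Nat.add_le_add (hM i k) (hN k j))

theorem entryDegLE_lift {n F : Type*} [Fintype n] [DecidableEq n] [Field F]
    (g : ℕ → Matrix.GeneralLinearGroup n F[X]) (d : ℕ → ℕ)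
    (h1 : ∀ i, EntryDegLE (g i : Matrix n n F[X]) (d i))
    (h2 : ∀ i, EntryDegLE (((g i)⁻¹ : Matrix.GeneralLinearGroup n F[X]) : Matrix n n F[X]) (d i))
    (w : FreeGroup ℕ) :
    EntryDegLE (FreeGroup.lift g w : Matrix n n F[X]) ((w.toWord.map (fun x => d x.1)).sum) := by
  rw [lift_eq_prod_toWord]
  induction w.toWord with
  | nil => simpa using EntryDegLE.one
  | cons a L ih =>
    rw [List.map_cons, List.prod_cons, List.map_cons, List.sum_cons, Units.val_mul]
    refine EntryDegLE.mul ?_ ih
    obtain ⟨i, b⟩ := a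
    cases b with
    | true => exact h1 i
    | false => exact h2 i

theorem map_lift {G H : Type*} [Group G] [Group H] (φ : G →* H) (g : ℕ → G) (w : FreeGroup ℕ) :
    φ (FreeGroup.lift g w) = FreeGroup.lift (fun i => φ (g i)) w := by
  have : φ.comp (FreeGroup.lift g) = FreeGroup.lift (fun i => φ (g i)) := by
    ext i
    simp
  rw [← this]
  rfl

end Cfsg.Agent.Lib.Helper39
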